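import Cfsg.Agent.Lib.QT1.WrC
import Cfsg.Agent.Lib.D8Cent.Main
import Cfsg.Agent.Lib.SylTools.Rank

/-!
# A maximal 2-local subgroup `S₄ ≀ Z₂`: fusion and the contradiction
-/

set_option autoImplicit false
set_option linter.unusedSectionVars false

namespace CfsgLib.QT1.Wr

open Subgroup Cfsg CfsgLib.W2 CfsgLib.LAE Function TG

local instance factTwoWd : Fact (Nat.Prime 2) := ⟨Nat.prime_two⟩

variable {G : Type*} [Group G] [Finite G] {φ : TM →* G} {g k n : G} {p q x y u : TM}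

/-- a permutation of the five elements `pp i` induced by conjugation -/
def Ach (φ : TM →* G) (f : Fin 5 → Fin 5) : Prop := ∃ g, ∀ i, Cm φ g (pp i) (pp (f i))

theorem Ach.comp {f f' : Fin 5 → Fin 5} (h : Ach φ f) (h' : Ach φ f') : Ach φ fun i => f' (f i) :=
  let ⟨_, e⟩ := h; let ⟨_, e'⟩ := h'; ⟨_, fun i => (e i).trans (e' _)⟩

theorem ach_sg (k : Fin 12) : Ach φ (sg k) := ⟨_, fun i => .of_eq (mg_pp k i)⟩

theorem card_le_index {L ι : Type*} [Group L] [Finite L] (C : Subgroup L) (F : L → G)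
    (hF : ∀ l, ∀ c ∈ C, F (l * c) = F l) (l : ι → L) (hl : Injective fun i => F (l i)) :
    Nat.card ι ≤ C.index :=
  Nat.card_le_card_of_injective (fun i => (l i : L ⧸ C)) fun i j e => hl (by
    have := hF (l i) _ (QuotientGroup.eq.1 e)
    simpa using this.symm)

theorem vec5 (f : Fin 5 → Fin 5) : ![f 0, f 1, f 2, f 3, f 4] = f := by
  ext i; fin_cases i <;> rfl

/-- the centralizer of `A₁⟨y₁⟩` -/
def LL (φ : TM →* G) : Subgroup G :=
  centralizer {φ z1} ⊓ (centralizer {φ a1} ⊓ centralizer {φ y1})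

/-- a Sylow 3-subgroup of `A₆` -/
def cc (i : Fin 3 × Fin 3) : alternatingGroup (Fin 6) :=
  ⟨Equiv.swap 0 1 * Equiv.swap 1 2, by simp⟩ ^ i.1.1 * ⟨Equiv.swap 3 4 * Equiv.swap 4 5, by simp⟩ ^ i.2.1

theorem cc_prop : Injective cc ∧ (∀ i j, cc i * cc j = cc j * cc i) ∧ ∀ i, cc i ^ 3 = 1 := by
  decide +kernel

namespace Hyp

variable (h : Hyp φ)
include h

theorem norm_Z (e1 : Cm φ g z z) (e2 : Cm φ g z1 x) (hx : InZ x) : ∃ s, InT s ∧ φ s = g := by
  refine h.nZ fun w hw => ?_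
  rcases (inZ w).1 hw with rfl | rfl | rfl | rfl
  · exact ⟨1, hw, .one⟩
  · exact ⟨x, hx, e2⟩
  · exact ⟨x * z, Z0.mul_mem hx (show InZ z by decide +kernel),
      (show z1 * z = z2 by decide +kernel) ▸ e2.mul e1⟩
  · exact ⟨z, hw, e1⟩

theorem ach_inj {f : Fin 5 → Fin 5} (e : Ach φ f) : Injective f := fun i j a =>
  let ⟨_, e⟩ := e; pp_eq.2.2.2.2.2.1 ((h.eq_iff (e i) (e j)).1 (congrArg pp a))

theorem not_ach {f : Fin 5 → Fin 5} (e : Ach φ f) (h0 : f 0 = 4) : False := by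
  obtain ⟨f', e', h1, h2⟩ : ∃ f', Ach φ f' ∧ 2 ≤ f' 0 ∧ 2 ≤ f' 1 := by
    have h3 := five1 (f 1) (f 2) (f 3) (f 4)
    have e' : ![4, f 1, f 2, f 3, f 4] = f := h0 ▸ vec5 f
    rw [e'] at h3
    rcases h3 (h.ach_inj e) with a | ⟨k, a⟩
    · exact ⟨f, e, by rw [h0]; decide, a⟩
    · exact ⟨_, (e.comp (ach_sg k)).comp e, by simpa only [h0] using a⟩
  have h3 := five2 _ _ h1 h2 (f' 2) (f' 3) (f' 4)
  rw [vec5] at h3
  obtain ⟨k, k', a, b, c⟩ := h3 (h.ach_inj e')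
  obtain ⟨g, hg⟩ := ((ach_sg k').comp e').comp (ach_sg k)
  have e4 := hg 4
  have e0 := hg 0
  have e1 := e0.mul (hg 1)
  simp only [a, b, c, pp_eq.2.1, pp_eq.2.2.1, pp_eq.2.2.2.1] at e4 e1 e0
  obtain ⟨s, hs, rfl⟩ := h.norm_Z e4 e1 (by decide +kernel)
  rw [pp_eq.1, pp_eq.2.2.2.2.1] at e0
  exact (t_z s hs).2.2.2.2 (h.eq_of e1) (h.eq_of e0)

theorem img_z2 (e1 : Mp φ g (InE 1) InT) (e2 : Mp φ g (InE 3) InT) :
    Cm φ g z2 z1 ∨ Cm φ g z2 z2 := by
  obtain ⟨i, hi⟩ := h.img_E e1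
  obtain ⟨j, hj⟩ := h.img_E e2
  obtain ⟨u, a, b⟩ := hj a2 (by decide +kernel)
  obtain ⟨v, c, d⟩ := hi b2 (by decide +kernel)
  have e := (b.mul d).mul (b.mul d)
  rw [show a2 * b2 * (a2 * b2) = z2 by decide +kernel] at e
  rcases (inZ _).1 ((S_comm v (E_S _ _ c).1 u (E_S _ _ a).1).2.2 (E_S _ _ a).2 (E_S _ _ c).2) with
    r | r | r | r <;> rw [r] at e
  · exact (rel.2.1 ((h.ne_one e).1 rfl)).elim
  · exact .inl e
  · exact .inr e
  · exact (h.nz' e.cj).elim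

/-- extremal conjugation of `b₁` or `b₁ z₂` -/
theorem ext_b (hu : u ∈ [b1, b1 * z2]) (e : ∀ p, InT p → p * u = u * p → ∃ q, InT q ∧ Cm φ g p q) :
    Mp φ g (InE 3) InT ∧ (Cm φ g z2 z1 ∨ Cm φ g z2 z2) :=
  have k : ∀ x, InE 1 x ∨ InE 3 x → ∃ q, InT q ∧ Cm φ g x q := fun x hx =>
    e x (S_T x (hx.elim (fun a => (E_S _ _ a).1) fun a => (E_S _ _ a).1)) (cen_E u hu x hx)
  ⟨fun x hx => k x (.inr hx), h.img_z2 (fun x hx => k x (.inl hx)) fun x hx => k x (.inr hx)⟩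

theorem nb : ¬ Cj φ b1 z := fun e => by
  obtain ⟨g, e1, e2⟩ := h.ext_z e
  obtain ⟨e3, e4⟩ := h.ext_b (by simp) e2
  have h1 : Cj φ (b1 * z2) z1 := by
    rcases e4 with a | a <;> exact (e1.mul a).cj.trans (Mc.cj (by decide +kernel))
  obtain ⟨g, e1, e5⟩ : ∃ g, Cm φ g b1 z ∧ Mp φ g (InE 3) (InE 3) := by
    rcases h.wcC (by decide) e3 with a | a
    exacts [⟨_, e1, a⟩, ⟨_, e1.trans (.of_eq (by decide +kernel)), a⟩]
  have h2 : ∀ i, ∃ j, Cm φ g (pp i) (pp j) := fun i => by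
    obtain ⟨hi, hc⟩ := pp_eq.2.2.2.2.2.2 i
    have h3 : Cj φ (pp i) z := hc.elim Mc.cj fun a => a.cj.trans e
    obtain ⟨x, hx, a⟩ := e5 _ hi
    have h4 := a.cj.symm.trans h3
    rcases C'_cls x hx with rfl | ⟨j, rfl⟩ | b | b
    · obtain ⟨_, b⟩ := h4
      exact absurd ((h.ne_one b).2 rfl) (by decide +kernel)
    · exact ⟨j, a⟩
    · exact (h.nz (b.cj.symm.trans h4)).elim
    · exact (h.nz ((b.cj.trans h1).symm.trans h4)).elim
  choose f hf using h2
  exact h.not_ach ⟨g, hf⟩ (pp_eq.2.2.2.2.2.1 (((h.eq_iff (hf 0) e1).2 pp_eq.1).trans pp_eq.2.1.symm))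

theorem of_z1 (hu : u ∈ [b1, b1 * z2]) (e : Cj φ u z1) : Cj φ (u * z2) z := by
  obtain ⟨g, e1, e2⟩ := h.ext_z1 e
  rcases (h.ext_b hu fun p a b => (e2 p a b).imp fun q c => ⟨S_T q c.1, c.2⟩).2 with a | a
  · exact absurd ((h.eq_iff e1 a).1 rfl) ((by decide +kernel : ∀ u ∈ [b1, b1 * z2], u ≠ z2) u hu)
  · exact (show z1 * z2 = z by decide +kernel) ▸ (e1.mul a).cj

theorem b_z1 : Cj φ b1 z1 := by
  by_contra h1
  have h2 : Cj φ b1 (b1 * b2) :=
    ((h.cls (by decide +kernel) (by decide +kernel)).resolve_left h1).resolve_left h.nb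
  have h3 : Cj φ (b1 * z2) b1 := by
    rcases h.cls (u := b1 * z2) (by decide +kernel) (by decide +kernel) with a | a | a
    · exact (h.nb ((show b1 * z2 * z2 = b1 by decide +kernel) ▸ h.of_z1 (by simp) a)).elim
    · obtain ⟨g, e1, e2⟩ := h.ext_z a
      refine (h1 ?_).elim
      rw [← show b1 * z2 * z2 = b1 by decide +kernel]
      rcases (h.ext_b (by simp) e2).2 with a | a <;>
        exact (e1.mul a).cj.trans (Mc.cj (by decide +kernel))
    · exact a.trans h2.symm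
  obtain ⟨g, e1, e2⟩ := h.ctrlB (by decide +kernel) (by decide +kernel) h2.symm
  obtain ⟨s, hs, rfl⟩ := h.nZ (g := g) fun x hx => by
    obtain ⟨y, a, b⟩ := e2 x (by revert x; decide +kernel)
    refine ⟨y, ?_, b⟩
    by_contra h4
    have h5 : Cj φ x b1 := b.cj.trans (by
      rcases (B_cls y a).resolve_left h4 with c | c | c
      exacts [c.cj, c.cj.trans h3, c.cj.trans h2.symm])
    rcases (inZ x).1 hx with rfl | rfl | rfl | rfl
    · obtain ⟨_, b⟩ := h5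
      exact absurd ((h.ne_one b).2 rfl) (by decide +kernel)
    · exact h1 h5.symm
    · exact h1 (h5.symm.trans (Mc.cj (by decide +kernel)))
    · exact h.nb h5.symm
  exact (t_z s hs).2.2.1 (h.eq_of e1)

theorem b_z : Cj φ (b1 * z2) z := h.of_z1 (by simp) h.b_z1

theorem not_D (e : Cj φ x z) : ¬ InD x := fun hx => by
  obtain ⟨g, e'⟩ := e
  rcases D_cls x (D_S x hx) ((h.sq e').1 (by decide +kernel))
    (fun a => absurd ((h.ne_one e').2 a) (by decide +kernel)) with ⟨-, a | a⟩ | ⟨a, -⟩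
  exacts [h.nz (a.cj.symm.trans e'.cj), h.nb (a.cj.symm.trans e'.cj), a hx]

theorem nbb : ¬ Cj φ (b1 * b2) z := fun h5 => by
  have h1 : ∀ x ∈ [a1 * a2, b1 * b2, z, a1 * a2 * z, b1 * b2 * z], Cj φ x z := fun x hx =>
    (diag x hx).2.2.2.2.2.1.elim Mc.cj fun a => a.cj.trans h5
  have h2 : ∀ {g x y}, x ∈ [a1 * a2, b1 * b2, z, a1 * a2 * z, b1 * b2 * z] → Cm φ g x y → ¬ InD y :=
    fun hx e => h.not_D (e.cj.symm.trans (h1 _ hx))
  have da := diag (a1 * a2) (by simp)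
  have db := diag (b1 * b2) (by simp)
  by_cases h3 : Cj φ t z1
  · obtain ⟨g, e1, e2⟩ := h.ext_z1 h3
    obtain ⟨u, hu, a⟩ := e2 _ da.1 da.2.1
    obtain ⟨v, hv, b⟩ := e2 _ db.1 db.2.1
    have h4 : ∀ {x y}, x ∈ [a1 * a2, b1 * b2, z, a1 * a2 * z, b1 * b2 * z] → InS y → Cm φ g x y →
        InD (z1 * y) := fun {x y} hx hy e => by
      have h6 := (e1.mul e).cj.symm.trans ((diag x hx).2.2.2.2.2.2.cj.trans h3)
      obtain ⟨_, h7⟩ := id h6
      rcases D_cls _ (S0.mul_mem (show InS z1 by decide +kernel) hy) ((h.sq h7).1 (by decide +kernel))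
        (fun a => absurd ((h.ne_one h7).2 a) (by decide +kernel)) with ⟨a, -⟩ | ⟨-, a | a | a⟩
      exacts [a, (h.nz (h6.symm.trans a.cj)).elim, (h.nz (h6.symm.trans (a.cj.trans h.b_z))).elim,
        (h.nz (h6.symm.trans (a.cj.trans h5))).elim]
    exact h2 (by simp) (diag'.1 ▸ (a.mul b).mul (a.mul b)) (tz1 u hu ((h.sq a).2 da.2.2.1)
      (h2 (by simp) a) (h4 (by simp) hu a) v hv ((h.sq b).2 db.2.2.1) (h2 (by simp) b)
      (h4 (by simp) hv b))
  · have h4 : Cj φ t z := ((h.cls diag'.2.2.1 diag'.2.2.2.1).resolve_left h3).elim id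
      fun a => a.trans h5
    obtain ⟨g, e1, e2⟩ := h.ext_z h4
    obtain ⟨u, hu, a⟩ := e2 _ da.1 da.2.1
    obtain ⟨v, hv, b⟩ := e2 _ db.1 db.2.1
    have h6 : ∀ {x y}, x ∈ [a1 * a2, b1 * b2, z, a1 * a2 * z, b1 * b2 * z] → Cm φ g x y →
        ¬ InD (z * y) := fun {x y} hx e =>
      h.not_D ((e1.mul e).cj.symm.trans ((diag x hx).2.2.2.2.2.2.cj.trans h4))
    have c := (a.mul b).mul (a.mul b)
    rw [diag'.1] at c
    exact h6 (by simp) (b.mul c) (tz u hu ((h.sq a).2 da.2.2.1) (h2 (by simp) a) (h6 (by simp) a)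
      v hv ((h.sq b).2 db.2.2.1) (h2 (by simp) b) (h6 (by simp) b)
      (fun e => diag'.2.1 ((h.eq_iff c e1).1 e)) ((h.sq c).2 (by decide +kernel)) (h2 (by simp) c)
      (h6 (by simp) c) (h2 (by simp) (a.mul c)) (h6 (by simp) (a.mul c)) (h2 (by simp) (b.mul c)))

theorem inD (hx : InE 2 x) (e : Cj φ x z1) : InD x :=
  (C_cls x hx).resolve_right fun a =>
    h.nz (e.symm.trans (a.elim Mc.cj fun a => a.cj.trans h.b_z))

theorem exists_h : ∃ g, Cm φ g z1 z1 ∧ Cm φ g a1 a1 ∧ Cm φ g y1 y1 ∧ Cm φ g b2 z2 ∧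
    Mp φ g (InE 1) (InE 1) := by
  obtain ⟨g, e1, e2⟩ := h.ext_z (u := z1 * b2) ((Mc.cj (by decide +kernel)).trans h.b_z)
  have k : ∀ x, InE 1 x ∨ InE 2 x → ∃ q, InT q ∧ Cm φ g x q := fun x hx =>
    e2 x (S_T x (hx.elim (fun a => (E_S _ _ a).1) fun a => (E_S _ _ a).1)) (cen_E' x hx)
  have e3 := h.wcB fun x hx => k x (.inl hx)
  obtain ⟨g, e1, e3, e4⟩ : ∃ g, Cm φ g (z1 * b2) z ∧ Mp φ g (InE 1) (InE 1) ∧
      Mp φ g (InE 2) (InE 2) := by
    rcases h.wcC (by decide) fun x hx => k x (.inr hx) with a | a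
    exacts [⟨_, e1, e3, a⟩, ⟨_, e1.trans (.of_eq (by decide +kernel)), e3.trans (.self (t_E 1)), a⟩]
  obtain ⟨u, hu, a⟩ := e4 a1 (by decide +kernel)
  obtain ⟨v, hv, b⟩ := e3 b1 (by decide +kernel)
  have e5 := (a.mul b).mul (a.mul b)
  rw [show a1 * b1 * (a1 * b1) = z1 by decide +kernel, (CB_sq u hu v hv).resolve_left fun r =>
    absurd ((h.ne_one e5).1 r) (by decide +kernel)] at e5
  have e6 := e5.mul e1
  rw [show z1 * (z1 * b2) = b2 by decide +kernel, show z1 * z = z2 by decide +kernel] at e6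
  have h1 : ∀ {x y}, Mc x z1 ∨ Mc x b1 → InE 2 y → Cm φ g x y → InD y := fun hx hy e =>
    h.inD hy (e.cj.symm.trans (hx.elim Mc.cj fun a => a.cj.trans h.b_z1))
  obtain ⟨w, hw, c⟩ := e4 z2 (by decide +kernel)
  have h2 := (C_a w hw (h1 (by decide +kernel) hw c) fun r => rel.2.1 ((h.ne_one c).1 r)).2
    (h1 (by decide +kernel) ((E0 2).mul_mem hw (show InE 2 z2 by decide +kernel)) (c.mul e6))
    fun r => absurd ((h.eq_iff c e6).1 r) (by decide +kernel)
  obtain ⟨g, e5, a, e6, c, e3⟩ : ∃ g, Cm φ g z1 z1 ∧ Cm φ g a1 a1 ∧ Cm φ g b2 z2 ∧ Cm φ g z2 w ∧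
      Mp φ g (InE 1) (InE 1) := by
    rcases (C_a u hu (h1 (by decide +kernel) hu a) fun r =>
      absurd ((h.ne_one a).1 r) (by decide +kernel)).1
      (h1 (by decide +kernel) ((E0 2).mul_mem hu (show InE 2 z1 by decide +kernel)) (a.mul e5))
      (fun r => absurd ((h.eq_iff a e5).1 r) (by decide +kernel)) with rfl | r
    · exact ⟨g, e5, a, e6, c, e3⟩
    · exact ⟨_, e5.trans (.of_eq (by decide +kernel)), a.trans (.of_eq r.symm),
        e6.trans (.of_eq (by decide +kernel)), c.trans (.of_eq h2.1.symm),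
        e3.trans (.self fun x hx => E_conj 1 x hx _ (by decide +kernel))⟩
  have e7 : Cm φ g (z1 * a1) (z1 * a1) := e5.mul a
  obtain ⟨s, hs, e8⟩ := h.mem_S (g := g * φ y1 * g⁻¹ * (φ y1)⁻¹)
    ((Cm.of_eq (p := a1) (by decide +kernel)).symm.trans (a.cnj e5 (.of_eq (by decide +kernel))))
    ((Cm.of_eq (p := z2) (by decide +kernel)).symm.trans (e6.cnj e6 (.of_eq (by decide +kernel))))
  have e9 : Cm φ g y1 (s * y1) := by rw [Cm, map_mul, e8, inv_mul_cancel_right]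
  obtain ⟨m, hm, r⟩ := ord3 s hs ((h.ne_one ((e9.mul e9).mul e9)).2 (by decide +kernel))
  obtain ⟨h3, h4⟩ := A1_fix m hm
  exact ⟨_, e5.trans (.of_eq (S_z _ h3).1.symm), a.trans (.of_eq h4.symm), e9.trans (.of_eq r.symm),
    e6.trans (.of_eq (S_z _ h3).2.symm), e3.trans (.self fun x hx => E_conj 1 x hx _ h3)⟩

omit h in
theorem mem_LL : g ∈ LL φ ↔ Cm φ g z1 z1 ∧ Cm φ g a1 a1 ∧ Cm φ g y1 y1 := by
  simp only [cm_fix]; rfl

theorem map_mem_LL : φ x ∈ LL φ ↔ InL x :=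
  mem_LL.trans ⟨fun e => ⟨h.eq_of e.1, h.eq_of e.2.1, h.eq_of e.2.2⟩,
    fun e => ⟨.of_eq e.1.symm, .of_eq e.2.1.symm, .of_eq e.2.2.symm⟩⟩

theorem cen_r {r c : LL φ} (hr : r.1 = φ (a2 * b2)) (hc : c ∈ centralizer ({r ^ 2} : Set (LL φ))) :
    ∃ s, InS s ∧ InL s ∧ φ s = c.1 := by
  have h1 := congrArg Subtype.val (mem_centralizer_singleton_iff.1 hc)
  simp only [coe_mul, coe_pow, hr, ← map_pow, rel.1] at h1
  obtain ⟨s, hs, e⟩ := h.mem_S (mem_LL.1 c.2).1 (cm_fix.2 (mem_centralizer_singleton_iff.2 h1))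
  exact ⟨s, hs, h.map_mem_LL.1 (e ▸ c.2), e⟩

theorem isD8 {r s : LL φ} (hr : r.1 = φ (a2 * b2)) (hs : s.1 = φ a2) : D8Cent.IsD8 r s := by
  obtain ⟨r1, r2, r3, r4, r5, r6, -, -, -, -, -, r7⟩ := rel
  refine ⟨?_, Subtype.ext ?_, Subtype.ext ?_, fun e => r6 (h.inj ?_), fun c => ⟨fun hc => ?_, ?_⟩⟩
  · refine orderOf_eq_prime_pow (p := 2) (n := 1) (fun e => r2 (h.inj ?_)) (Subtype.ext ?_)
    · simpa only [pow_one, coe_pow, hr, ← map_pow, r1, coe_one, map_one] using congrArg Subtype.val e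
    · simp only [coe_pow, hr, ← map_pow, coe_one]; rw [show 2 ^ (1 + 1) = 4 from rfl, r3, map_one]
  · simp only [coe_mul, hs, ← map_mul, r4, map_one, coe_one]
  · simp only [coe_mul, coe_inv, hs, hr, ← map_mul, ← map_inv, r5]
  · obtain ⟨i, rfl⟩ := e
    rw [map_mul, map_mul φ _ a2, ← hs, ← hr]
    exact congrArg Subtype.val (Commute.zpow_self r i).eq
  · obtain ⟨u, h1, h2, e⟩ := h.cen_r hr hc
    obtain ⟨i, rfl | rfl⟩ := (D2_eq u h1 h2).2
    · exact ⟨i.1, .inl (Subtype.ext (by simp [hr, ← e]))⟩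
    · exact ⟨i.1, .inr (Subtype.ext (by simp [hr, hs, ← e]))⟩
  · have h1 : r ∈ centralizer ({r ^ 2} : Set (LL φ)) :=
      mem_centralizer_singleton_iff.2 (Commute.self_pow r 2).eq
    rintro ⟨i, rfl | rfl⟩
    · exact zpow_mem h1 i
    · exact mul_mem (zpow_mem h1 i) (mem_centralizer_singleton_iff.2 (Subtype.ext (by
        simp only [coe_mul, coe_pow, hr, hs, ← map_pow, ← map_mul, r1, r7])))

theorem false : False := by
  obtain ⟨g, e1, e2, e3, e4, e5⟩ := h.exists_h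
  have hg : g ∈ LL φ := mem_LL.2 ⟨e1, e2, e3⟩
  obtain ⟨l1, l2, l3, l4, l5⟩ := inL
  let s : LL φ := ⟨φ a2, h.map_mem_LL.2 l1⟩
  let b : LL φ := ⟨φ b2, h.map_mem_LL.2 l2⟩
  let y : LL φ := ⟨φ y2, h.map_mem_LL.2 l3⟩
  have hr : (s * b).1 = φ (a2 * b2) := (map_mul φ _ _).symm
  have hz : ((s * b) ^ 2).1 = φ z2 := by rw [coe_pow, hr, ← map_pow, rel.1]
  have hD := h.isD8 hr (s := s) rfl
  have hi : ∀ M : Subgroup (LL φ), M.index ≠ 2 := fun M hM => by
    have hN := normal_of_index_eq_two hM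
    have h1 := sq_mem_of_index_two hM (s * b)
    have h2 : s ∈ M := by
      convert hN.conj_mem' _ h1 y
      refine Subtype.ext ?_
      simp only [coe_mul, coe_inv, hz, rel.2.2.2.2.2.2.1, map_mul, map_inv, s, y]; group
    have h3 : b ∈ M := by
      convert hN.conj_mem' _ h1 ⟨g, hg⟩
      refine Subtype.ext ?_
      simp only [coe_mul, coe_inv, hz, b]; rw [e4]; group
    have h4 : centralizer {(s * b) ^ 2} ≤ M := fun c hc => by
      obtain ⟨i, rfl | rfl⟩ := (hD.mem c).1 hc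
      exacts [zpow_mem (mul_mem h2 h3) i, mul_mem (zpow_mem (mul_mem h2 h3) i) h2]
    exact (Nat.not_even_iff_odd.2 hD.odd_index) (even_iff_two_dvd.2 (hM.symm.dvd.trans (index_dvd_of_le h4)))
  rcases hD.of_no_index_two hi with ⟨-, hc⟩ | ⟨⟨e⟩⟩
  · obtain ⟨x, hx, e6⟩ := e5 b1 (by decide +kernel)
    obtain ⟨g1, g2, g3⟩ : Injective (ww x) ∧ (∀ k, ww x k * b1 = b1 * ww x k) ∧
        y2 * x * y2⁻¹ * x ≠ x * (y2 * x * y2⁻¹) := by
      rcases good x hx fun a => absurd ((h.comm e6 e2).1 a) (by decide +kernel) with a | a | a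
      · exact (h.nz ((h.b_z1.symm.trans e6.cj).trans (a.cj.trans h.b_z))).elim
      · exact (h.nbb ((e6.mul e4).cj.trans (a.cj.trans h.b_z))).elim
      · exact a
    set C := (centralizer {φ b1}).subgroupOf (LL φ)
    have c1 : 8 ∣ Nat.card C := hD.card_eq ▸ card_dvd_of_le fun c hc => by
      obtain ⟨u, h1, h2, e⟩ := h.cen_r hr hc
      exact mem_centralizer_singleton_iff.2 (by
        rw [subtype_apply, ← e, ← map_mul, ← map_mul, (D2_eq u h1 h2).1])
    have c2 : 3 ∣ Nat.card C := by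
      have h1 : y ∈ C := mem_centralizer_singleton_iff.2 (by
        rw [subtype_apply, ← map_mul, ← map_mul, rel.2.2.2.2.2.2.2.2.2.1])
      have : Fact (Nat.Prime 3) := ⟨Nat.prime_three⟩
      rw [← orderOf_eq_prime (x := y) (p := 3) (Subtype.ext (by
        rw [coe_pow, ← map_pow, rel.2.2.2.2.2.2.2.1, map_one, coe_one])) fun a =>
        rel.2.2.2.2.2.2.2.2.1 (h.inj ((congrArg Subtype.val a).trans (map_one φ).symm))]
      exact orderOf_dvd_natCard _ h1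
    let l : Option (Fin 6) → LL φ := fun k =>
      k.elim 1 fun k => ⟨φ (ms k), h.map_mem_LL.2 (l4 k)⟩ * ⟨g, hg⟩
    have hl : ∀ k, (l k).1 * φ b1 * (l k).1⁻¹ = φ (ww x k) := by
      rintro (_ | k)
      · simp [l, ww]
      · exact Eq.symm (e6.trans (.self (ms k) x))
    have hl' : ∀ k, (l k).1 * φ b1 * (l k).1⁻¹ ≠ g⁻¹ * φ y2 * g * φ b1 * (g⁻¹ * φ y2 * g)⁻¹ :=
      fun k a => g3 (h.inj (by
        have h1 := congrArg φ (g2 k)
        rw [map_mul, map_mul, ← hl, a] at h1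
        simp only [map_mul, map_inv]; rw [e6]
        calc _ = g * (g⁻¹ * φ y2 * g * φ b1 * (g⁻¹ * φ y2 * g)⁻¹ * φ b1) * g⁻¹ := by group
          _ = _ := by rw [h1]; group))
    have c3 := card_le_index C (fun c => c.1 * φ b1 * c.1⁻¹) (fun c d hd => by
      have := cm_fix.2 (mem_subgroupOf.1 hd)
      simp only [coe_mul]; conv_rhs => rw [this]
      group) (fun k : Option (Option (Fin 6)) => k.elim (⟨g, hg⟩⁻¹ * y * ⟨g, hg⟩) l) (by
        rintro (_ | i) (_ | j) a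
        · rfl
        · exact (hl' j a.symm).elim
        · exact (hl' i a).elim
        · exact congrArg some (g1 (h.inj ((hl i).symm.trans (a.trans (hl j))))))
    have c4 := C.card_mul_index
    have c5 := Nat.le_of_dvd Nat.card_pos (Nat.Coprime.mul_dvd_of_dvd_of_dvd (by norm_num) c1 c2)
    rw [hc] at c4
    simp only [Nat.card_eq_fintype_card, Fintype.card_option, Fintype.card_fin] at c3
    nlinarith
  · let w : Fin 3 × Fin 3 → G := fun i => (e.symm (cc i)).1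
    have h1 : ∀ x ∈ insert (φ y1) (Set.range w), ∀ y ∈ insert (φ y1) (Set.range w),
        x * y = y * x := by
      have k : ∀ i, w i * φ y1 = φ y1 * w i := fun i =>
        mem_centralizer_singleton_iff.1 (e.symm (cc i)).2.2.2
      rintro _ (rfl | ⟨i, rfl⟩) _ (rfl | ⟨j, rfl⟩)
      exacts [rfl, (k j).symm, k i, by
        simp only [w, ← coe_mul, ← map_mul, cc_prop.2.1 i j]]
    have h2 := PLocal.elemAb_closure (p := 3) h1 (by
      rintro _ (rfl | ⟨i, rfl⟩)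
      · rw [← map_pow, rel.2.2.2.2.2.2.2.2.2.2.1, map_one]
      · simp only [w, ← coe_pow, ← map_pow, cc_prop.2.2 i, map_one, coe_one])
    have h3 := SylTools.pRankLE_subgroup_iff.1 h.qt _ ((closure_le _).2 (by
      rintro _ (rfl | ⟨i, rfl⟩)
      · exact Mp.norm (.self fun x hx => (y1_A1 x hx).1)
      · obtain ⟨a, b, -⟩ := mem_LL.1 (e.symm (cc i)).2
        refine Mp.norm fun x hx => ⟨x, hx, ?_⟩
        rcases (y1_A1 x hx).2 with rfl | rfl | rfl | rfl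
        exacts [.one, a, b, a.mul b])) (SylTools.isMulCommutative_iff_forall.1 h2.1) h2.2
    have h4 := Nat.card_le_card_of_injective (fun k : Option (Fin 3 × Fin 3) =>
      (k.elim ⟨_, subset_closure (.inl rfl)⟩ fun i => ⟨w i, subset_closure (.inr ⟨i, rfl⟩)⟩ :
        closure (insert (φ y1) (Set.range w)))) (by
      have k : ∀ i, φ y1 ≠ w i := fun i a => l5 (h.map_mem_LL.1 (a ▸ (e.symm (cc i)).2))
      rintro (_ | i) (_ | j) a
      · rfl
      · exact (k j (congrArg Subtype.val a)).elim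
      · exact (k i (congrArg Subtype.val a).symm).elim
      · have a' := congrArg Subtype.val a
        exact congrArg some (cc_prop.1 (e.symm.injective (Subtype.ext a'))))
    simp only [Nat.card_eq_fintype_card, Fintype.card_option, Fintype.card_prod,
      Fintype.card_fin] at h4
    omega

end Hyp

theorem no_wreath [IsSimpleGroup G] (hG : ¬ IsMulCommutative G) (hQ : IsQTKE G) (T : Sylow 2 G)
    {M : Subgroup G} (hM : M ∈ maxTwoLocalsContaining (T : Subgroup G))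
    (e : M ≃* blockStabilizerS4wr2) : False := by
  obtain ⟨φ, hi, rfl⟩ := exists_hom e
  have pT : IsPGroup 2 (T0.map φ) := .of_card (n := 7) (by rw [card_map_of_injective hi, card_T])
  have hl : ∀ {X : Subgroup TM} {x : TM}, (∀ y ∈ X, InT y) → x ∈ X → x ≠ 1 →
      IsTwoLocal (normalizer (X.map φ : Set G)) := fun h1 h2 h3 =>
    ⟨_, pT.to_le (map_mono h1), fun a => h3 (hi ((a.le ⟨_, h2, rfl⟩).trans (map_one φ).symm)), rfl⟩
  have hS : IsSylowIn 2 (T0.map φ) ⊤ := by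
    refine isSylowIn_of_card_eq (isSylowIn_top T) le_top pT ?_
    obtain ⟨k, hk⟩ := T.isPGroup'.exists_card_eq
    have h1 := card_dvd_of_le hM.2
    rw [← Nat.card_congr (MonoidHom.ofInjective hi).toEquiv, hk, show Nat.card TM = 2 ^ 7 * 9 from
      card_eq] at h1
    rw [hk, card_map_of_injective hi, card_T]
    exact Nat.le_of_dvd (by norm_num) ((Nat.Coprime.pow_left k (by norm_num)).dvd_of_dvd_mul_right h1)
  refine Hyp.false (φ := φ) ⟨hi, hS, (hM.1.2 _ (hl (x := a1) (fun y hy => S_T y (E_S 0 y hy).1)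
    (by decide +kernel : InE 0 a1) (by decide +kernel)) ?_).le, isCharP_iff.2 (hQ.2.2 _
      (hl (x := z1) (by decide +kernel : ∀ y, InZ y → InT y) (by decide +kernel : InZ z1)
        (by decide +kernel)) ?_), fun M hM => ?_, hQ.1 3 Nat.prime_three (by norm_num) _
      (hl (x := z1) (by decide +kernel : ∀ y, In 3 y → InT y) (by decide +kernel : In 3 z1)
        (by decide +kernel))⟩
  · rintro _ ⟨x, rfl⟩
    exact (eq_top_of_genB gen3 (S := (normalizer ((E0 0).map φ : Set G)).comap φ) fun g hg =>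
      Mp.norm (.self (A_conj g hg))).ge (mem_top x)
  · obtain ⟨P, hP⟩ := pT.exists_le_sylow
    refine ⟨P, (hS.eq_of_le _ P.isPGroup' hP le_top).le.trans ?_⟩
    rintro _ ⟨s, hs, rfl⟩
    exact Mp.norm (.self fun x hx => Z_conj x hx s hs)
  · rcases (normal_of_index_eq_two hM).eq_bot_or_eq_top with rfl | rfl
    · rw [index_bot] at hM
      exact hG (isCyclic_of_prime_card hM).isMulCommutative
    · simp at hM

end CfsgLib.QT1.Wr
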